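import Cfsg.Agent.H252.EN.Tab

/-!
# S5745, the table of the cross cell of `²F₄(q)`, `q = 2 ^ (2 m + 1) ≥ 8` (helper446)

On helper252's `Ub` / `UB`: `reg_tf4` (names of Lie type, degree `52`), `alt_tf4` (alternating groups: only `A₁₀`, `m = 1`),
`tits_tf4` (the Tits group: only `m = 1`).
-/

set_option autoImplicit false

namespace Cfsg.Agent.H446.EPX

open Cfsg.Agent.H902 Cfsg.Agent.H290.ElReg Cfsg.Agent.H290.ElTab Cfsg.Agent.H252.EN

set_option maxRecDepth 100000

/-- the order of `²F₄(q)` -/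
def ntf (q : ℕ) : ℕ := q ^ 12 * (q - 1) * (q ^ 3 + 1) * (q ^ 4 - 1) * (q ^ 6 + 1)

theorem ntf_mono : Monotone ntf := by
  intro a b h
  simp only [ntf]
  gcongr

/-- every `m ≥ 1` below `8` is excluded or in the list, and `8` is too big -/
def tst (L : List ℕ) (t u : ℕ) : Bool :=
  ((List.range 8).all fun m => Nat.beq m 0 || L.contains m || force (ntf (2 ^ (2 * m + 1))) fun v =>
    (Nat.blt u v || !(Nat.beq (v % t) 0))) && Nat.blt u (ntf (2 ^ 17))

/-- the test with `|T| = t`, `|H|` a divisor of `B` -/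
def chkB (L : List ℕ) (t B : ℕ) : Bool := good B && force (UB B) fun u => tst L t u

theorem chkB_spec {L : List ℕ} {t B g m : ℕ} (h : chkB L t B = true) (hm : 1 ≤ m) (hg : g = ntf (2 ^ (2 * m + 1)))
    (hu : Ub B g) (hd : t ∣ g) : m ∈ L := by
  rw [chkB, Bool.and_eq_true, force_eq, tst, Bool.and_eq_true] at h
  obtain ⟨hB, h1, h2⟩ := h
  have hgu := hu.le hB
  rw [Nat.blt_eq] at h2
  have h3 : m < 8 := by
    by_contra hcon
    push Not at hcon
    have h4 := ntf_mono (Nat.pow_le_pow_right (by norm_num : 0 < 2) (by omega : 17 ≤ 2 * m + 1))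
    omega
  have h4 := List.all_eq_true.1 h1 m (List.mem_range.2 h3)
  rw [force_eq, ← hg] at h4
  simp only [Bool.or_eq_true, Nat.beq_eq, Nat.blt_eq, List.contains_iff_mem, Bool.not_eq_true'] at h4
  rcases h4 with (h4 | h4) | h4 | h4
  · omega
  · exact h4
  · omega
  · rw [Nat.mod_eq_zero_of_dvd hd] at h4
    exact absurd h4 (by decide)

/-- the test for the region -/
def chkReg : Bool :=
  (reg 52).all fun x => Nat.beq x.2.1 2 || force (od x.1 x.2.1 x.2.2) fun t => chkB [] t (ouN x.1 x.2.1 x.2.2 * t)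

theorem chkReg_true : chkReg = true := by decide +kernel

/-- the test for the alternating groups of degree at most `16` -/
def chkAlt : Bool :=
  (List.range 17).all fun n => Nat.blt n 5 || chkB (if n = 10 then [1] else []) (n.factorial / 2) (autA n)

theorem chkAlt_true : chkAlt = true := by decide +kernel

theorem chkTits_true : chkB [1] 17971200 35942400 = true := by decide +kernel

theorem reg_tf4 {X : Art.Sh} {l a t m g : ℕ} (hT : Art.Real X l a t) (hr : (X, (l, a)) ∈ reg 52) (hl : l ≠ 2)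
    (hm : 1 ≤ m) (hg : g = ntf (2 ^ (2 * m + 1))) (hu : Ub (ouN X l a * t) g) (hd : t ∣ g) : False := by
  have h1 := List.all_eq_true.1 chkReg_true _ hr
  rw [force_eq, ← real_eq hT, Bool.or_eq_true, Nat.beq_eq] at h1
  rcases h1 with h1 | h1
  · exact hl h1
  · exact absurd (chkB_spec h1 hm hg hu hd) List.not_mem_nil

/-- `17` does not divide `|²F₄(q)|` -/
theorem not_dvd {m : ℕ} : ¬ 17 ∣ ntf (2 ^ (2 * m + 1)) := by
  have h2 : (2 : ℕ) ^ (2 * m + 1) % 17 = 2 * 4 ^ (m % 4) % 17 := by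
    have h3 : m = 4 * (m / 4) + m % 4 := (Nat.div_add_mod m 4).symm
    have h4 : (2 : ℕ) ^ (2 * m + 1) = 256 ^ (m / 4) * (2 * 4 ^ (m % 4)) := by
      conv_lhs => rw [h3]
      rw [show (4 : ℕ) = 2 ^ 2 by norm_num, show (256 : ℕ) = 2 ^ 8 by norm_num, ← pow_mul, ← pow_mul, ← pow_succ',
        ← pow_add]
      congr 1
      ring
    rw [h4, Nat.mul_mod, Nat.pow_mod]
    norm_num
  intro h
  have h5 : 1 ≤ 2 ^ (2 * m + 1) := Nat.one_le_two_pow
  have key : ∀ q : ℕ, 1 ≤ q → 17 ∣ ntf q → 17 ∣ ntf (q % 17) ∨ q % 17 = 0 := by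
    intro q hq hd
    by_cases h0 : q % 17 = 0
    · exact Or.inr h0
    left
    have hq0 : 1 ≤ q % 17 := by omega
    have e1 : (q - 1) ≡ (q % 17 - 1) [MOD 17] := by
      unfold Nat.ModEq
      omega
    have e0 : q ≡ q % 17 [MOD 17] := (Nat.mod_modEq q 17).symm
    have e4 : (q ^ 4 - 1) ≡ ((q % 17) ^ 4 - 1) [MOD 17] := by
      have h6 : q ^ 4 ≡ (q % 17) ^ 4 [MOD 17] := e0.pow 4
      have h7 : 1 ≤ q ^ 4 := Nat.one_le_pow _ _ hq
      have h8 : 1 ≤ (q % 17) ^ 4 := Nat.one_le_pow _ _ hq0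
      unfold Nat.ModEq at h6 ⊢
      omega
    have h9 : ntf q ≡ ntf (q % 17) [MOD 17] := by
      unfold ntf
      exact ((((e0.pow 12).mul e1).mul ((e0.pow 3).add_right 1)).mul e4).mul ((e0.pow 6).add_right 1)
    exact (h9.dvd_iff (dvd_refl 17)).1 hd
  have h6 := key _ h5 h
  rw [h2] at h6
  have h7 : m % 4 < 4 := Nat.mod_lt _ (by norm_num)
  interval_cases m % 4 <;> revert h6 <;> decide +kernel

theorem alt_tf4 {n t m g : ℕ} (h5 : 5 ≤ n) (ht : 2 * t = n.factorial) (hm : 1 ≤ m) (hg : g = ntf (2 ^ (2 * m + 1)))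
    (hu : Ub (autA n) g) (hd : t ∣ g) : n = 10 ∧ m = 1 := by
  have hn : n ≤ 16 := by
    by_contra hcon
    push Not at hcon
    have h1 : 17 ∣ n.factorial := Nat.dvd_factorial (by norm_num) (by omega)
    rw [← ht] at h1
    have h2 : 17 ∣ t := (Nat.Coprime.dvd_mul_left (by decide : Nat.Coprime 17 2)).1 h1
    exact not_dvd (m := m) (hg ▸ h2.trans hd)
  have h1 := List.all_eq_true.1 chkAlt_true n (List.mem_range.2 (by omega))
  rw [Bool.or_eq_true, Nat.blt_eq, show n.factorial / 2 = t by omega] at h1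
  rcases h1 with h1 | h1
  · omega
  have h2 := chkB_spec h1 hm hg hu hd
  by_cases hn : n = 10
  · rw [if_pos hn] at h2
    exact ⟨hn, by simpa using h2⟩
  · rw [if_neg hn] at h2
    exact absurd h2 List.not_mem_nil

theorem tits_tf4 {m g : ℕ} (hm : 1 ≤ m) (hg : g = ntf (2 ^ (2 * m + 1))) (hu : Ub 35942400 g)
    (hd : 17971200 ∣ g) : m = 1 := by
  simpa using chkB_spec chkTits_true hm hg hu hd

end Cfsg.Agent.H446.EPX
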